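import Mathlib

/-! Cycle-weighted sums over `p`-groups of permutations. -/

set_option autoImplicit false
set_option linter.style.haveILetI false

open Subgroup

namespace Cfsg.Agent.PermClasses

universe u

variable {X : Type u}

/-- The orbit of a point under a subgroup of permutations, as a set. -/
def orbitSet (S : Subgroup (Equiv.Perm X)) (x : X) : Set X := {y | ∃ σ ∈ S, σ x = y}

theorem mem_orbitSet_self (S : Subgroup (Equiv.Perm X)) (x : X) : x ∈ orbitSet S x :=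
  ⟨1, one_mem S, rfl⟩

theorem orbitSet_eq_orbit (S : Subgroup (Equiv.Perm X)) (x : X) :
    orbitSet S x = MulAction.orbit S x := by
  ext y
  constructor
  · rintro ⟨σ, hσ, rfl⟩; exact ⟨⟨σ, hσ⟩, rfl⟩
  · rintro ⟨⟨σ, hσ⟩, rfl⟩; exact ⟨σ, hσ, rfl⟩

theorem orbitSet_eq_of_mem {S : Subgroup (Equiv.Perm X)} {x y : X} (h : y ∈ orbitSet S x) :
    orbitSet S y = orbitSet S x := by
  obtain ⟨σ, hσ, rfl⟩ := h
  ext z
  constructor
  · rintro ⟨τ, hτ, rfl⟩; exact ⟨τ * σ, mul_mem hτ hσ, rfl⟩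
  · rintro ⟨τ, hτ, rfl⟩; exact ⟨τ * σ⁻¹, mul_mem hτ (inv_mem hσ), by simp⟩

/-- Number of orbits. -/
noncomputable def orb (S : Subgroup (Equiv.Perm X)) : ℕ := (Set.range (orbitSet S)).ncard

theorem orb_le [Finite X] (S : Subgroup (Equiv.Perm X)) : orb S ≤ Nat.card X := by
  rw [orb, ← Set.image_univ, ← Set.ncard_univ]
  exact Set.ncard_image_le Set.finite_univ

theorem orb_pos [Finite X] [Nonempty X] (S : Subgroup (Equiv.Perm X)) : 0 < orb S :=
  (Set.ncard_pos (Set.toFinite _)).2 (Set.range_nonempty _)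

/-- Restriction to an invariant set. -/
def resPerm (P : Subgroup (Equiv.Perm X)) (s : Set X) (hs : ∀ σ ∈ P, ∀ x, σ x ∈ s ↔ x ∈ s) :
    P →* Equiv.Perm s where
  toFun σ := (σ : Equiv.Perm X).subtypePerm (hs σ σ.2)
  map_one' := Equiv.ext fun x => Subtype.ext rfl
  map_mul' σ τ := Equiv.ext fun x => Subtype.ext rfl

theorem resPerm_apply (P : Subgroup (Equiv.Perm X)) (s : Set X)
    (hs : ∀ σ ∈ P, ∀ x, σ x ∈ s ↔ x ∈ s) (σ : P) (x : s) :
    ((resPerm P s hs σ x : s) : X) = (σ : Equiv.Perm X) x := rfl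

theorem image_orbitSet_res (P : Subgroup (Equiv.Perm X)) (s : Set X)
    (hs : ∀ σ ∈ P, ∀ x, σ x ∈ s ↔ x ∈ s) (H : Subgroup P) (x : s) :
    (Subtype.val '' orbitSet (H.map (resPerm P s hs)) x) = orbitSet (H.map P.subtype) (x : X) := by
  ext y
  constructor
  · rintro ⟨z, ⟨_, ⟨σ, hσ, rfl⟩, rfl⟩, rfl⟩
    exact ⟨σ, mem_map_of_mem _ hσ, rfl⟩
  · rintro ⟨_, ⟨σ, hσ, rfl⟩, rfl⟩
    exact ⟨_, ⟨_, mem_map_of_mem _ hσ, rfl⟩, rfl⟩

theorem orb_split [Finite X] (P : Subgroup (Equiv.Perm X)) (s : Set X)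
    (hs : ∀ σ ∈ P, ∀ x, σ x ∈ s ↔ x ∈ s) (hs' : ∀ σ ∈ P, ∀ x, σ x ∈ sᶜ ↔ x ∈ sᶜ) (H : Subgroup P) :
    orb (H.map P.subtype) = orb (H.map (resPerm P s hs)) + orb (H.map (resPerm P sᶜ hs')) := by
  classical
  have h1 : ∀ (t : Set X) (ht : ∀ σ ∈ P, ∀ x, σ x ∈ t ↔ x ∈ t),
      orb (H.map (resPerm P t ht)) = (orbitSet (H.map P.subtype) '' t).ncard := by
    intro t ht
    rw [orb, ← Set.ncard_image_of_injective _ (Set.image_injective.2 Subtype.val_injective)]
    congr 1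
    ext A
    constructor
    · rintro ⟨_, ⟨x, rfl⟩, rfl⟩; exact ⟨x, x.2, (image_orbitSet_res P t ht H x).symm⟩
    · rintro ⟨x, hx, rfl⟩; exact ⟨_, ⟨⟨x, hx⟩, rfl⟩, image_orbitSet_res P t ht H ⟨x, hx⟩⟩
  rw [h1, h1, orb, ← Set.image_univ, ← Set.union_compl_self s, Set.image_union,
    Set.ncard_union_eq ?_ (Set.toFinite _) (Set.toFinite _)]
  rw [Set.disjoint_iff]
  rintro A ⟨⟨x, hx, rfl⟩, y, hy, hxy⟩
  have hmem : y ∈ orbitSet (H.map P.subtype) x := hxy ▸ mem_orbitSet_self _ y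
  obtain ⟨σ, hσ, rfl⟩ := hmem
  obtain ⟨τ, hτ, rfl⟩ := hσ
  exact hy ((hs τ τ.2 x).2 hx)

theorem orb_zpowers_mul_le [Finite X] {p : ℕ} [hp : Fact p.Prime] {σ : Equiv.Perm X}
    (hσ : IsPGroup p (zpowers σ)) (hfix : ∀ x, σ x ≠ x) :
    p * orb (zpowers σ) ≤ Nat.card X := by
  classical
  haveI : Fintype X := Fintype.ofFinite X
  rw [orb, Set.ncard_eq_toFinset_card', Set.toFinset_range, Nat.card_eq_fintype_card]
  refine Finset.mul_card_image_le_card _ p fun A hA => ?_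
  obtain ⟨x, -, rfl⟩ := Finset.mem_image.1 hA
  obtain ⟨k, hk⟩ := hσ.card_orbit x
  have h2 : 1 < (orbitSet (zpowers σ) x).ncard := by
    rw [Set.one_lt_ncard (Set.toFinite _)]
    exact ⟨_, ⟨σ, mem_zpowers σ, rfl⟩, x, mem_orbitSet_self _ x, hfix x⟩
  have h3 : p ≤ (orbitSet (zpowers σ) x).ncard := by
    rw [orbitSet_eq_orbit] at h2 ⊢
    rw [← Nat.card_coe_set_eq, hk] at h2 ⊢
    refine Nat.le_self_pow ?_ p
    rintro rfl
    simp at h2
  refine h3.trans ?_
  rw [Set.ncard_eq_toFinset_card']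
  refine Finset.card_le_card fun y hy => ?_
  rw [Set.mem_toFinset] at hy
  exact Finset.mem_filter.2 ⟨Finset.mem_univ _, orbitSet_eq_of_mem hy⟩

/-- Order and cycle-weighted sum of a `p`-group of permutations. -/
theorem pgroup_bounds (p : ℕ) [hp : Fact p.Prime] :
    ∀ (d : ℕ) (X : Type u) [Finite X], Nat.card X = d → ∀ P : Subgroup (Equiv.Perm X),
      IsPGroup p P →
      Nat.card P ^ (p - 1) ≤ p ^ (d - orb P) ∧
      ∀ [Fintype P] (a β : ℝ), 1 ≤ a → 1 ≤ β →
        1 + (p : ℝ) / a ^ (p - 1) ≤ β ^ (p - 1) →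
        (p : ℝ) ^ p ≤ a ^ ((p - 1) * (p - 1)) * β ^ (p * (p - 1)) →
        ∑ σ : P, a ^ orb (zpowers (σ : Equiv.Perm X)) ≤ a ^ d * β ^ (d - orb P) := by
  intro d
  induction d using Nat.strong_induction_on with
  | _ d ih => ?_
  intro X _ hd
  classical
  subst hd
  -- several orbits
  have hsplit : ∀ P : Subgroup (Equiv.Perm X), IsPGroup p P → 1 < orb P →
      Nat.card P ^ (p - 1) ≤ p ^ (Nat.card X - orb P) ∧
      ∀ [Fintype P] (a β : ℝ), 1 ≤ a → 1 ≤ β →
        1 + (p : ℝ) / a ^ (p - 1) ≤ β ^ (p - 1) →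
        (p : ℝ) ^ p ≤ a ^ ((p - 1) * (p - 1)) * β ^ (p * (p - 1)) →
        ∑ σ : P, a ^ orb (zpowers (σ : Equiv.Perm X)) ≤
          a ^ Nat.card X * β ^ (Nat.card X - orb P) := by
    intro P hP hm
    obtain ⟨A, ⟨x₀, rfl⟩, B, ⟨x₁, rfl⟩, hne⟩ :=
      (Set.one_lt_ncard (Set.toFinite _)).1 (show 1 < (Set.range (orbitSet P)).ncard from hm)
    set s := orbitSet P x₀ with hsdef
    have hs : ∀ σ ∈ P, ∀ x, σ x ∈ s ↔ x ∈ s := by
      intro σ hσ x
      constructor
      · rintro ⟨τ, hτ, h⟩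
        exact ⟨σ⁻¹ * τ, mul_mem (inv_mem hσ) hτ, by simp [h]⟩
      · rintro ⟨τ, hτ, rfl⟩
        exact ⟨σ * τ, mul_mem hσ hτ, rfl⟩
    have hs' : ∀ σ ∈ P, ∀ x, σ x ∈ sᶜ ↔ x ∈ sᶜ := fun σ hσ x => not_congr (hs σ hσ x)
    have hx1 : x₁ ∉ s := fun h => hne (orbitSet_eq_of_mem h).symm
    have hcard : Nat.card s + Nat.card (sᶜ : Set X) = Nat.card X := by
      rw [Nat.card_coe_set_eq, Nat.card_coe_set_eq, Set.ncard_add_ncard_compl]
    have hspos : 0 < Nat.card s :=
      Nat.card_pos_iff.2 ⟨⟨⟨x₀, mem_orbitSet_self P x₀⟩⟩, inferInstance⟩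
    have hcpos : 0 < Nat.card (sᶜ : Set X) := Nat.card_pos_iff.2 ⟨⟨⟨x₁, hx1⟩⟩, inferInstance⟩
    set r₁ := resPerm P s hs
    set r₂ := resPerm P sᶜ hs'
    have hP1 : IsPGroup p r₁.range := hP.of_surjective _ r₁.rangeRestrict_surjective
    have hP2 : IsPGroup p r₂.range := hP.of_surjective _ r₂.rangeRestrict_surjective
    obtain ⟨hc1, hw1⟩ := ih _ (by omega) s rfl r₁.range hP1
    obtain ⟨hc2, hw2⟩ := ih _ (by omega) (sᶜ : Set X) rfl r₂.range hP2
    have horb : orb P = orb r₁.range + orb r₂.range := by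
      have h := orb_split P s hs hs' ⊤
      rwa [← MonoidHom.range_eq_map, ← MonoidHom.range_eq_map, ← MonoidHom.range_eq_map,
        range_subtype] at h
    have hle1 := orb_le r₁.range
    have hle2 := orb_le r₂.range
    have hexp : Nat.card X - orb P =
        (Nat.card s - orb r₁.range) + (Nat.card (sᶜ : Set X) - orb r₂.range) := by omega
    have hinj : Function.Injective fun σ : P => (r₁.rangeRestrict σ, r₂.rangeRestrict σ) := by
      intro σ τ h
      have e1 := congrArg (fun z => ((z.1 : r₁.range) : Equiv.Perm s)) h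
      have e2 := congrArg (fun z => ((z.2 : r₂.range) : Equiv.Perm (sᶜ : Set X))) h
      refine Subtype.ext (Equiv.ext fun x => ?_)
      by_cases hx : x ∈ s
      · exact congrArg Subtype.val (Equiv.congr_fun e1 ⟨x, hx⟩)
      · exact congrArg Subtype.val (Equiv.congr_fun e2 ⟨x, hx⟩)
    refine ⟨?_, fun a β ha hβ h1 h2 => ?_⟩
    · rw [hexp, pow_add]
      refine le_trans ?_ (Nat.mul_le_mul hc1 hc2)
      rw [← mul_pow]
      refine Nat.pow_le_pow_left ?_ _
      have := Nat.card_le_card_of_injective _ hinj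
      rwa [Nat.card_prod] at this
    · haveI : Fintype r₁.range := Fintype.ofFinite _
      haveI : Fintype r₂.range := Fintype.ofFinite _
      rw [hexp, ← hcard, pow_add, pow_add, mul_mul_mul_comm]
      refine le_trans ?_ (mul_le_mul (hw1 a β ha hβ h1 h2) (hw2 a β ha hβ h1 h2)
        (Finset.sum_nonneg fun _ _ => by positivity) (by positivity))
      rw [Finset.sum_mul_sum, ← Finset.sum_product']
      have hterm : ∀ σ : P, orb (zpowers (σ : Equiv.Perm X)) =
          orb (zpowers (r₁ σ)) + orb (zpowers (r₂ σ)) := fun σ => by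
        have h := orb_split P s hs hs' (zpowers σ)
        rwa [MonoidHom.map_zpowers, MonoidHom.map_zpowers, MonoidHom.map_zpowers] at h
      calc ∑ σ : P, a ^ orb (zpowers (σ : Equiv.Perm X))
          = ∑ z ∈ Finset.univ.image (fun σ : P => (r₁.rangeRestrict σ, r₂.rangeRestrict σ)),
              a ^ orb (zpowers (z.1 : Equiv.Perm s)) *
                a ^ orb (zpowers (z.2 : Equiv.Perm (sᶜ : Set X))) := by
            rw [Finset.sum_image fun _ _ _ _ h => hinj h]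
            exact Finset.sum_congr rfl fun σ _ => by rw [hterm, pow_add]; rfl
        _ ≤ _ := Finset.sum_le_sum_of_subset_of_nonneg
            (fun z _ => Finset.mem_product.2 ⟨Finset.mem_univ _, Finset.mem_univ _⟩)
            fun _ _ _ => by positivity
  intro P hP
  by_cases hm : 1 < orb P
  · exact hsplit P hP hm
  by_cases hX : Subsingleton X
  · have hsub : ∀ σ : P, σ = 1 := fun σ => Subtype.ext (Equiv.ext fun x => Subsingleton.elim _ _)
    haveI : Subsingleton P := ⟨fun a b => (hsub a).trans (hsub b).symm⟩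
    refine ⟨by rw [Nat.card_unique, one_pow]; exact Nat.one_le_pow _ _ hp.out.pos,
      fun a β ha hβ _ _ => ?_⟩
    rw [Fintype.sum_subsingleton _ 1]
    refine le_trans ?_ (le_mul_of_one_le_right (by positivity) (one_le_pow₀ hβ))
    exact pow_le_pow_right₀ ha (orb_le _)
  rw [not_subsingleton_iff_nontrivial] at hX
  obtain ⟨x₀⟩ := (inferInstance : Nonempty X)
  have hm1 : orb P = 1 := by have := orb_pos P; omega
  have htr : ∀ y, ∃ σ ∈ P, σ x₀ = y := by
    intro y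
    obtain ⟨A, hA⟩ := Set.ncard_eq_one.1 (show (Set.range (orbitSet P)).ncard = 1 from hm1)
    have h0 : orbitSet P x₀ = A := hA.subset ⟨x₀, rfl⟩
    have h1 : orbitSet P y = A := hA.subset ⟨y, rfl⟩
    have h2 : y ∈ orbitSet P x₀ := by rw [h0.trans h1.symm]; exact mem_orbitSet_self P y
    exact h2
  set St : Subgroup P := MulAction.stabilizer P x₀ with hSt
  have hStne : St ≠ ⊤ := by
    intro h
    obtain ⟨y, hy⟩ := exists_ne x₀
    obtain ⟨σ, hσ, rfl⟩ := htr y
    exact hy (show (⟨σ, hσ⟩ : P) • x₀ = x₀ from (h ▸ mem_top _ : (⟨σ, hσ⟩ : P) ∈ St))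
  obtain ⟨K', hK'max, hStK⟩ := (eq_top_or_exists_le_coatom St).resolve_left hStne
  haveI := hP.isNilpotent
  haveI hK'n : K'.Normal :=
    Subgroup.NormalizerCondition.normal_of_coatom K' Group.normalizerCondition_of_isNilpotent hK'max
  have hK'i : K'.index = p := by
    obtain ⟨k, hk⟩ := hP.index K'
    haveI : IsSimpleGroup (P ⧸ K') := by
      haveI : Nontrivial (P ⧸ K') := QuotientGroup.nontrivial_iff.2 hK'max.1
      refine ⟨fun N _ => ?_⟩
      have hc := comap_injective (f := QuotientGroup.mk' K') (QuotientGroup.mk'_surjective K')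
      rcases (hK'max.le_iff.1 (QuotientGroup.le_comap_mk' K' N)) with h | h
      · exact Or.inr (hc (by rw [h, comap_top]))
      · exact Or.inl (hc (by rw [h, MonoidHom.comap_bot, QuotientGroup.ker_mk']))
    haveI : Group.IsNilpotent (P ⧸ K') := inferInstance
    letI : CommGroup (P ⧸ K') := { (inferInstance : Group (P ⧸ K')) with
      mul_comm := fun a b => IsSimpleGroup.comm_iff_isSolvable.2 inferInstance a b }
    have hpr := IsSimpleGroup.prime_card (α := P ⧸ K')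
    rw [← index_eq_card, hk] at hpr
    rw [hk, Nat.Prime.eq_one_of_pow hpr, pow_one]
  set K : Subgroup (Equiv.Perm X) := K'.map P.subtype with hK
  have hKp : IsPGroup p K := hP.to_le (map_subtype_le K')
  have hKorb : p ≤ orb K := by
    rw [← hK'i, index_eq_card]
    rw [orb, ← Nat.card_coe_set_eq]
    refine Nat.card_le_card_of_injective
      (fun q => (⟨orbitSet K ((q.out : P) • x₀), ⟨_, rfl⟩⟩ : Set.range (orbitSet K))) ?_
    intro q q' h
    have he : orbitSet K ((q.out : P) • x₀) = orbitSet K ((q'.out : P) • x₀) := congrArg Subtype.val h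
    have h' : (q.out : P) • x₀ ∈ orbitSet K ((q'.out : P) • x₀) := by
      rw [← he]; exact mem_orbitSet_self K _
    obtain ⟨_, ⟨k, hk, rfl⟩, hkq⟩ := h'
    have hst : q'.out⁻¹ * k⁻¹ * q.out ∈ K' := hStK (by
      rw [hSt, MulAction.mem_stabilizer_iff, mul_smul, ← hkq, mul_smul]
      show q'.out⁻¹ • k⁻¹ • k • q'.out • x₀ = x₀
      rw [inv_smul_smul, inv_smul_smul])
    have hc : q'.out⁻¹ * k * q'.out ∈ K' := by
      simpa using hK'n.conj_mem k hk q'.out⁻¹
    have := mul_mem hc hst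
    rw [show q'.out⁻¹ * k * q'.out * (q'.out⁻¹ * k⁻¹ * q.out) = q'.out⁻¹ * q.out by group] at this
    have h2 := QuotientGroup.eq.2 this
    rw [QuotientGroup.out_eq', QuotientGroup.out_eq'] at h2
    exact h2.symm
  have hd : p ≤ Nat.card X := hKorb.trans (orb_le K)
  have hp1 : 1 < p := hp.out.one_lt
  obtain ⟨hcK, hwK⟩ := hsplit K hKp (by omega)
  have hcardP : Nat.card P = p * Nat.card K := by
    rw [hK, card_map_of_injective (Subgroup.subtype_injective P), ← hK'i, mul_comm, card_mul_index]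
  have hcP : Nat.card P ^ (p - 1) ≤ p ^ (Nat.card X - orb P) := by
    rw [hm1, hcardP, mul_pow, show Nat.card X - 1 = (p - 1) + (Nat.card X - p) by omega, pow_add]
    exact Nat.mul_le_mul_left _ (hcK.trans (Nat.pow_le_pow_right hp.out.pos (by omega)))
  refine ⟨hcP, fun a β ha hβ h1 h2 => ?_⟩
  haveI : Fintype K := Fintype.ofFinite K
  rw [hm1]
  set d := Nat.card X with hddef
  have ha0 : 0 < a := lt_of_lt_of_le one_pos ha
  have hβ0 : 0 < β := lt_of_lt_of_le one_pos hβ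
  have hin : ∑ σ ∈ Finset.univ.filter (fun σ : P => σ ∈ K'),
      a ^ orb (zpowers (σ : Equiv.Perm X)) ≤ a ^ d * β ^ (d - p) := by
    have he : ∑ σ ∈ Finset.univ.filter (fun σ : P => σ ∈ K'),
        a ^ orb (zpowers (σ : Equiv.Perm X)) = ∑ τ : K, a ^ orb (zpowers (τ : Equiv.Perm X)) :=
      Finset.sum_bij (fun σ hσ => ⟨(σ : Equiv.Perm X), mem_map_of_mem _ (Finset.mem_filter.1 hσ).2⟩)
        (fun _ _ => Finset.mem_univ _)
        (fun a _ b _ h => Subtype.ext (congrArg (fun z : K => (z : Equiv.Perm X)) h))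
        (fun τ _ => by
          obtain ⟨σ, hσ, he⟩ := τ.2
          exact ⟨σ, Finset.mem_filter.2 ⟨Finset.mem_univ _, hσ⟩, Subtype.ext he⟩)
        (fun _ _ => rfl)
    rw [he]
    exact (hwK a β ha hβ h1 h2).trans
      (mul_le_mul_of_nonneg_left (pow_le_pow_right₀ hβ (by omega)) (by positivity))
  have hmain : ∀ c : ℕ, p * c ≤ d →
      (Nat.card P : ℝ) * a ^ c * a ^ (p - 1) ≤ a ^ d * β ^ (d - p) * p := by
    intro c hc
    have hN : p * (p - 1) ≠ 0 := Nat.mul_ne_zero (by omega) (by omega)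
    rw [← pow_le_pow_iff_left₀ (by positivity) (by positivity) hN]
    have hc' : (Nat.card P : ℝ) ^ (p - 1) ≤ (p : ℝ) ^ (d - 1) := by
      rw [hm1] at hcP; exact_mod_cast hcP
    obtain ⟨e, he⟩ := Nat.exists_eq_add_of_le hd
    calc ((Nat.card P : ℝ) * a ^ c * a ^ (p - 1)) ^ (p * (p - 1))
        = ((Nat.card P : ℝ) ^ (p - 1)) ^ p * a ^ ((p * c + p * (p - 1)) * (p - 1)) := by
          rw [mul_pow, mul_pow, ← pow_mul, ← pow_mul, ← pow_mul, mul_assoc, ← pow_add]
          ring_nf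
      _ ≤ ((p : ℝ) ^ (d - 1)) ^ p * a ^ ((d + p * (p - 1)) * (p - 1)) :=
          mul_le_mul (pow_le_pow_left₀ (by positivity) hc' _)
            (pow_le_pow_right₀ ha (Nat.mul_le_mul_right _ (by omega))) (by positivity) (by positivity)
      _ = ((p : ℝ) ^ p) ^ e * ((p : ℝ) ^ (p * (p - 1)) * a ^ ((d + p * (p - 1)) * (p - 1))) := by
          rw [show d - 1 = e + (p - 1) by omega, ← pow_mul, ← pow_mul, ← mul_assoc, ← pow_add]
          congr 2; ring
      _ ≤ (a ^ ((p - 1) * (p - 1)) * β ^ (p * (p - 1))) ^ e *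
          ((p : ℝ) ^ (p * (p - 1)) * a ^ ((d + p * (p - 1)) * (p - 1))) :=
          mul_le_mul_of_nonneg_right (pow_le_pow_left₀ (by positivity) h2 _) (by positivity)
      _ = (a ^ d * β ^ (d - p) * (p : ℝ)) ^ (p * (p - 1)) := by
          rw [show d - p = e by omega, he]
          obtain ⟨q, rfl⟩ : ∃ q, p = q + 1 := ⟨p - 1, by omega⟩
          simp only [Nat.add_sub_cancel, mul_pow, ← pow_mul]
          ring
  have hout : ∑ σ ∈ Finset.univ.filter (fun σ : P => σ ∉ K'),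
      a ^ orb (zpowers (σ : Equiv.Perm X)) ≤ a ^ d * β ^ (d - p) * ((p : ℝ) / a ^ (p - 1)) := by
    obtain ⟨c, hc, hcmax⟩ : ∃ c : ℕ, p * c ≤ d ∧ ∀ c', p * c' ≤ d → c' ≤ c :=
      ⟨d / p, Nat.mul_div_le d p, fun c' h => (Nat.le_div_iff_mul_le hp.out.pos).2 (by linarith)⟩
    have hterm : ∀ σ ∈ Finset.univ.filter (fun σ : P => σ ∉ K'),
        a ^ orb (zpowers (σ : Equiv.Perm X)) ≤ a ^ c := by
      intro σ hσ
      refine pow_le_pow_right₀ ha (hcmax _ (orb_zpowers_mul_le (hP.to_le (zpowers_le.2 σ.2)) ?_))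
      intro y hy
      obtain ⟨g, hg, rfl⟩ := htr y
      apply (Finset.mem_filter.1 hσ).2
      have hst : (⟨g, hg⟩ : P)⁻¹ * σ * ⟨g, hg⟩ ∈ K' := hStK (by
        rw [hSt, MulAction.mem_stabilizer_iff, mul_smul, mul_smul]
        show g⁻¹ ((σ : Equiv.Perm X) (g x₀)) = x₀
        rw [hy]; simp)
      simpa [mul_assoc] using hK'n.conj_mem _ hst ⟨g, hg⟩
    refine (Finset.sum_le_card_nsmul _ _ _ hterm).trans ?_
    rw [nsmul_eq_mul, ← mul_div_assoc, le_div_iff₀ (by positivity)]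
    refine le_trans ?_ (hmain c hc)
    refine mul_le_mul_of_nonneg_right (mul_le_mul_of_nonneg_right ?_ (by positivity)) (by positivity)
    rw [Nat.card_eq_fintype_card]
    exact_mod_cast Finset.card_le_univ _
  rw [← Finset.sum_filter_add_sum_filter_not Finset.univ (fun σ : P => σ ∈ K')]
  refine (add_le_add hin hout).trans ?_
  calc a ^ d * β ^ (d - p) + a ^ d * β ^ (d - p) * ((p : ℝ) / a ^ (p - 1))
      = a ^ d * β ^ (d - p) * (1 + (p : ℝ) / a ^ (p - 1)) := by ring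
    _ ≤ a ^ d * β ^ (d - p) * β ^ (p - 1) := mul_le_mul_of_nonneg_left h1 (by positivity)
    _ = a ^ d * β ^ (d - 1) := by rw [mul_assoc, ← pow_add]; congr 2; omega

end Cfsg.Agent.PermClasses
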