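import Mathlib
import Cfsg.Agent.Lib.Element
import Cfsg.Agent.ClassCount.PiCoset
import Cfsg.Agent.PermClasses.PGroup

/-! The number of classes of a permutation group of degree `d` is at most `(22/5)^(d-1)`. -/

set_option autoImplicit false
set_option linter.style.haveILetI false

open Subgroup

namespace Cfsg.Agent.PermClasses

/-- Number of classes of elements all of whose prime divisors of the order are at most `n`. -/
noncomputable def smoothClasses (G : Type*) [Group G] (n : ℕ) : ℕ :=
  Nat.card {C : ConjClasses G // ∃ g, ConjClasses.mk g = C ∧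
    ∀ q : ℕ, q.Prime → q ∣ orderOf g → q ≤ n}

theorem smoothClasses_le_one {G : Type*} [Group G] [Finite G] {n : ℕ}
    (h : ∀ g : G, (∀ q : ℕ, q.Prime → q ∣ orderOf g → q ≤ n) → g = 1) :
    smoothClasses G n ≤ 1 := by
  refine Finite.card_le_one_iff_subsingleton.2 ⟨fun a b => Subtype.ext ?_⟩
  obtain ⟨g, hg, hg'⟩ := a.2
  obtain ⟨k, hk, hk'⟩ := b.2
  rw [← hg, ← hk, h g hg', h k hk']

theorem eq_one_of_smooth_one {G : Type*} [Group G] {n : ℕ} (hn : n < 2) (g : G)
    (h : ∀ q : ℕ, q.Prime → q ∣ orderOf g → q ≤ n) : g = 1 := by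
  by_contra hg
  obtain ⟨q, hq, hd⟩ := Nat.exists_prime_and_dvd (fun h1 => hg (orderOf_eq_one_iff.1 h1))
  have h1 := h q hq hd
  have h2 := hq.two_le
  omega

/-- Passing to the quotient by a normal `p`-subgroup, `p > n`. -/
theorem smoothClasses_le_quotient {G : Type*} [Group G] [Finite G] {p n : ℕ} [hp : Fact p.Prime]
    (hnp : n < p) (N : Subgroup G) [N.Normal] (hN : IsPGroup p N) :
    smoothClasses G n ≤ smoothClasses (G ⧸ N) n := by
  have h := ClassCount.card_piClasses_le N {q | q ≤ n}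
  simp only [Set.mem_setOf_eq] at h
  refine h.trans ((Nat.mul_le_mul_right _ ?_).trans (one_mul _).le)
  show smoothClasses N n ≤ 1
  refine smoothClasses_le_one fun g hg => ?_
  by_contra hg1
  obtain ⟨q, hq, hd⟩ := Nat.exists_prime_and_dvd (fun h1 => hg1 (orderOf_eq_one_iff.1 h1))
  obtain ⟨k, hk⟩ := hN g
  have hqp := (Nat.prime_dvd_prime_iff_eq hq hp.out).1
    (hq.dvd_of_dvd_pow (hd.trans (orderOf_dvd_of_pow_eq_one hk)))
  have := hg q hq hd
  omega

/-- Splitting off the `p`-part. -/
theorem smoothClasses_le_sum {G : Type*} [Group G] [Finite G] {p n : ℕ} [hp : Fact p.Prime]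
    (hpn : p = n + 1) (P : Sylow p G) [Fintype (P : Subgroup G)] :
    smoothClasses G p ≤ ∑ x : (P : Subgroup G),
      smoothClasses (centralizer ({(x : G)} : Set G)) n := by
  classical
  let T := Σ x : (P : Subgroup G), {D : ConjClasses (centralizer ({(x : G)} : Set G)) //
    ∃ g, ConjClasses.mk g = D ∧ ∀ q : ℕ, q.Prime → q ∣ orderOf g → q ≤ n}
  have hT : Nat.card T = ∑ x : (P : Subgroup G),
      smoothClasses (centralizer ({(x : G)} : Set G)) n := Nat.card_sigma
  rw [← hT]
  have hsurj : ∀ C : {C : ConjClasses G // ∃ g, ConjClasses.mk g = C ∧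
      ∀ q : ℕ, q.Prime → q ∣ orderOf g → q ≤ p},
      ∃ t : T, ConjClasses.mk ((t.1 : G) * ((Quotient.out t.2.1 :
        centralizer ({(t.1 : G)} : Set G)) : G)) = C.1 := by
    rintro ⟨C, g₀, hg₀, hsm⟩
    have hz : IsPGroup p (zpowers (Element.pPart p g₀)) :=
      IsPGroup.of_card (n := (orderOf g₀).factorization p)
        (by rw [Nat.card_zpowers, Element.orderOf_pPart_eq_pow hp.out])
    obtain ⟨Q, hQ⟩ := hz.exists_le_sylow
    obtain ⟨c, hc⟩ := MulAction.exists_smul_eq G Q P
    set g := c * g₀ * c⁻¹ with hg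
    have hxP : Element.pPart p g ∈ (P : Subgroup G) := by
      rw [hg, (Element.pPart_conj hp.out c g₀).1, ← hc, Sylow.coe_subgroup_smul]
      exact ⟨_, hQ (mem_zpowers _), rfl⟩
    set x : (P : Subgroup G) := ⟨Element.pPart p g, hxP⟩ with hx
    set y := Element.pComplPart p g with hy
    have hyC : y ∈ centralizer ({(x : G)} : Set G) :=
      mem_centralizer_singleton_iff.2 (Element.commute_pPart_pComplPart p g).symm.eq
    have hord : orderOf g = orderOf g₀ :=
      ((SemiconjBy.orderOf_eq c (show SemiconjBy c g₀ g from by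
        rw [SemiconjBy, hg, inv_mul_cancel_right]))).symm
    have hysm : ∀ q : ℕ, q.Prime → q ∣ orderOf (⟨y, hyC⟩ : centralizer ({(x : G)} : Set G)) →
        q ≤ n := by
      intro q hq hd
      rw [orderOf_mk] at hd
      have h1 : q ≤ p := hsm q hq (hord ▸ hd.trans
        (orderOf_dvd_of_mem_zpowers (Element.pComplPart_mem_zpowers p g)))
      have h2 : q ≠ p := by
        rintro rfl
        exact (hp.out.coprime_iff_not_dvd.1 (Element.coprime_orderOf_pComplPart hp.out g).symm) hd
      omega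
    refine ⟨⟨x, ⟨ConjClasses.mk ⟨y, hyC⟩, _, rfl, hysm⟩⟩, ?_⟩
    have hout : IsConj (⟨y, hyC⟩ : centralizer ({(x : G)} : Set G))
        (Quotient.out (ConjClasses.mk (⟨y, hyC⟩ : centralizer ({(x : G)} : Set G)))) :=
      ConjClasses.mk_eq_mk_iff_isConj.1 (Quotient.out_eq _).symm
    obtain ⟨d, hd⟩ := isConj_iff.1 hout
    show ConjClasses.mk ((x : G) * _) = C
    rw [← hg₀, ConjClasses.mk_eq_mk_iff_isConj, isConj_comm, isConj_iff]
    refine ⟨(d : G) * c, ?_⟩
    rw [← hd]
    show (d : G) * c * g₀ * ((d : G) * c)⁻¹ = (x : G) * ((d : G) * y * (d : G)⁻¹)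
    have hdx : (d : G) * x = x * d := mem_centralizer_singleton_iff.1 d.2
    calc (d : G) * c * g₀ * ((d : G) * c)⁻¹ = (d : G) * (c * g₀ * c⁻¹) * (d : G)⁻¹ := by group
      _ = (d : G) * (x * y) * (d : G)⁻¹ := by
          rw [show (x : G) * y = g from Element.pPart_mul_pComplPart p g]
      _ = ((d : G) * x) * y * (d : G)⁻¹ := by group
      _ = (x : G) * ((d : G) * y * (d : G)⁻¹) := by rw [hdx]; group
  choose t ht using hsurj
  exact Nat.card_le_card_of_injective t
    fun a b h => Subtype.ext (by rw [← ht a, ← ht b, h])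

/-- The growth rates. -/
noncomputable def rate (n : ℕ) : ℝ :=
  if n < 2 then 1 else if n = 2 then 2 else (11 / 4) / (5 / 8 + 3 / 2 ^ n)

theorem rate_le (n : ℕ) : rate n ≤ 5 := by
  unfold rate
  split_ifs
  · norm_num
  · norm_num
  · rw [div_le_iff₀ (by positivity)]
    have : (0 : ℝ) < 3 / 2 ^ n := by positivity
    linarith

theorem rate_ge {n : ℕ} (hn : 2 ≤ n) : 2 ≤ rate n := by
  unfold rate
  rw [if_neg (by omega)]
  split_ifs with h
  · exact le_rfl
  · rw [le_div_iff₀ (by positivity)]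
    have h3 : (2 : ℝ) ^ 3 ≤ 2 ^ n := pow_le_pow_right₀ (by norm_num) (by omega)
    have : (3 : ℝ) / 2 ^ n ≤ 3 / 2 ^ 3 := div_le_div_of_nonneg_left (by norm_num) (by norm_num) h3
    norm_num at this ⊢
    linarith

theorem one_le_rate (n : ℕ) : 1 ≤ rate n := by
  by_cases hn : n < 2
  · simp [rate, hn]
  · linarith [rate_ge (not_lt.1 hn)]

theorem rate_succ (n : ℕ) : rate n ≤ rate (n + 1) := by
  by_cases hn : n < 2
  · simp only [rate, if_pos hn]; exact one_le_rate _
  by_cases h2 : n = 2
  · subst h2; norm_num [rate]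
  simp only [rate, if_neg hn, if_neg h2, if_neg (show ¬ n + 1 < 2 by omega),
    if_neg (show n + 1 ≠ 2 by omega)]
  refine div_le_div_of_nonneg_left (by norm_num) (by positivity) ?_
  gcongr <;> norm_num

theorem rate_step {p : ℕ} (hp : p.Prime) (hp2 : p ≠ 2) :
    ∃ β : ℝ, 1 ≤ β ∧ rate (p - 1) * β ≤ rate p ∧
      1 + (p : ℝ) / rate (p - 1) ^ (p - 1) ≤ β ^ (p - 1) ∧
      (p : ℝ) ^ p ≤ rate (p - 1) ^ ((p - 1) * (p - 1)) * β ^ (p * (p - 1)) := by
  have hp3 : 3 ≤ p := by have := hp.two_le; omega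
  rcases eq_or_ne p 3 with rfl | h3
  · exact ⟨11 / 8, by norm_num, by norm_num [rate], by norm_num [rate], by norm_num [rate]⟩
  have h5 : 5 ≤ p := by
    by_contra h
    interval_cases p <;> first | omega | norm_num at hp
  obtain ⟨e, rfl⟩ := Nat.exists_eq_add_of_le h5
  have ha := rate_ge (n := 5 + e - 1) (by omega)
  have hδ0 : (0 : ℝ) ≤ 3 / 2 ^ (5 + e) := by positivity
  refine ⟨1 + 3 / 2 ^ (5 + e), by linarith, ?_, ?_, ?_⟩
  · simp only [rate, if_neg (show ¬ 5 + e - 1 < 2 by omega), if_neg (show 5 + e - 1 ≠ 2 by omega),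
      if_neg (show ¬ 5 + e < 2 by omega), if_neg (show 5 + e ≠ 2 by omega)]
    rw [div_mul_eq_mul_div, div_le_div_iff₀ (by positivity) (by positivity)]
    rw [show 5 + e - 1 = 4 + e by omega, show 5 + e = (4 + e) + 1 by omega, pow_succ]
    set t : ℝ := 3 / ((2 : ℝ) ^ (4 + e) * 2) with ht
    have ht0 : 0 ≤ t := by positivity
    have h2 : (3 : ℝ) / 2 ^ (4 + e) = 2 * t := by rw [ht]; field_simp
    rw [h2]
    have h16 : (2 : ℝ) ^ 4 ≤ 2 ^ (4 + e) := pow_le_pow_right₀ (by norm_num) (by omega)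
    have ht1 : t ≤ 3 / 32 := by
      rw [ht]
      exact div_le_div_of_nonneg_left (by norm_num) (by norm_num) (by linarith)
    nlinarith
  · refine le_trans ?_ (one_add_mul_le_pow (by linarith) (5 + e - 1))
    rw [show 5 + e - 1 = 4 + e by omega] at *
    have hle : (2 : ℝ) ^ (4 + e) ≤ rate (4 + e) ^ (4 + e) := pow_le_pow_left₀ (by norm_num) ha _
    refine add_le_add le_rfl ((div_le_div_of_nonneg_left (by positivity) (by positivity) hle).trans ?_)
    rw [show 5 + e = (4 + e) + 1 by omega, pow_succ]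
    push_cast
    rw [mul_div_assoc', div_le_div_iff₀ (by positivity) (by positivity)]
    have h2 : (0 : ℝ) < 2 ^ (4 + e) := by positivity
    have he : (0 : ℝ) ≤ e := Nat.cast_nonneg e
    nlinarith
  · have h1 : (5 + e : ℕ) ^ (5 + e) ≤ 2 ^ ((5 + e - 1) * (5 + e - 1)) := by
      rw [show 5 + e - 1 = 4 + e by omega]
      have key : ∀ e : ℕ, 5 + e ≤ 2 ^ (3 + e) := by
        intro e
        induction e with
        | zero => norm_num
        | succ e ih => rw [← Nat.add_assoc 3, pow_succ]; omega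
      refine (Nat.pow_le_pow_left (key e) _).trans ?_
      rw [← pow_mul]
      exact Nat.pow_le_pow_right (by norm_num) (by nlinarith)
    calc ((5 + e : ℕ) : ℝ) ^ (5 + e) ≤ (2 : ℝ) ^ ((5 + e - 1) * (5 + e - 1)) := by exact_mod_cast h1
      _ ≤ rate (5 + e - 1) ^ ((5 + e - 1) * (5 + e - 1)) := pow_le_pow_left₀ (by norm_num) ha _
      _ ≤ _ := le_mul_of_one_le_right (pow_nonneg (by linarith) _) (one_le_pow₀ (by linarith))

theorem centralizer_classes {G X : Type} [Group G] [Finite G] [Finite X] [Nonempty X]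
    (f : G →* Equiv.Perm X) (hf : Function.Injective f) {p n : ℕ} [hp : Fact p.Prime] (hnp : n < p)
    (a : ℝ) (x : G) (hx : IsPGroup p (zpowers x))
    (ih : ∀ (H Y : Type) [Group H] [Finite H] [Finite Y] [Nonempty Y] (φ : H →* Equiv.Perm Y),
      Function.Injective φ → (smoothClasses H n : ℝ) ≤ a ^ (Nat.card Y - 1)) :
    (smoothClasses (centralizer ({x} : Set G)) n : ℝ) ≤ a ^ (orb (zpowers (f x)) - 1) := by
  classical
  set C := centralizer ({x} : Set G) with hC
  set S := zpowers (f x) with hS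
  have hcomm : ∀ c : C, ∀ σ ∈ S, f c * σ = σ * f c := fun c σ hσ => by
    obtain ⟨k, rfl⟩ := mem_zpowers_iff.1 hσ
    exact ((show Commute (c : G) x from mem_centralizer_singleton_iff.1 c.2).map f).zpow_right k
  have himg : ∀ (c : C) (y : X), f c '' orbitSet S y = orbitSet S (f c y) := by
    intro c y
    ext z
    constructor
    · rintro ⟨_, ⟨σ, hσ, rfl⟩, rfl⟩
      exact ⟨σ, hσ, by rw [← Equiv.Perm.mul_apply, ← hcomm c σ hσ, Equiv.Perm.mul_apply]⟩
    · rintro ⟨σ, hσ, rfl⟩
      exact ⟨σ y, ⟨σ, hσ, rfl⟩,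
        by rw [← Equiv.Perm.mul_apply, hcomm c σ hσ, Equiv.Perm.mul_apply]⟩
  let Ω : Type := ↥(Set.range (orbitSet S))
  letI act : MulAction C Ω :=
    { smul := fun c O => ⟨f c '' O.1, by
        obtain ⟨y, hy⟩ := O.2
        exact ⟨f c y, by rw [← hy, himg]⟩⟩
      one_smul := fun O => Subtype.ext (by
        show f (1 : C).1 '' O.1 = O.1
        simp)
      mul_smul := fun c d O => Subtype.ext (by
        show f (c * d : C).1 '' O.1 = f c '' (f d '' O.1)
        rw [Set.image_image, Subgroup.coe_mul, map_mul]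
        rfl) }
  set φ := MulAction.toPermHom C Ω with hφ
  have hker : IsPGroup p φ.ker := by
    obtain ⟨k, hk⟩ := hx ⟨x, mem_zpowers x⟩
    intro c
    refine ⟨k, Subtype.ext (Subtype.ext (hf (Equiv.ext fun y => ?_)))⟩
    have h := congrArg Subtype.val
      (Equiv.congr_fun (c.2 : φ c = 1) ⟨orbitSet S y, ⟨y, rfl⟩⟩)
    have h' : f (c : C).1 '' orbitSet S y = orbitSet S y := h
    rw [himg] at h'
    obtain ⟨σ, hσ, hσy⟩ : f (c : C).1 y ∈ orbitSet S y := h' ▸ mem_orbitSet_self S _
    have hcom : Commute (f (c : C).1) σ := hcomm (c : C) σ hσ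
    have hpow : ∀ j : ℕ, (f (c : C).1 ^ j) y = (σ ^ j) y := by
      intro j
      induction j with
      | zero => rfl
      | succ j ihj =>
        rw [pow_succ (f (c : C).1), Equiv.Perm.mul_apply, ← hσy, ← Equiv.Perm.mul_apply,
          (hcom.pow_left j).eq, Equiv.Perm.mul_apply, ihj, ← Equiv.Perm.mul_apply, ← pow_succ']
    obtain ⟨l, hl⟩ := mem_zpowers_iff.1 hσ
    have hσ1 : σ ^ p ^ k = 1 := by
      have hfx : f x ^ p ^ k = 1 := by
        rw [← map_pow]
        have := congrArg Subtype.val hk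
        simp only [SubmonoidClass.coe_pow] at this
        rw [this, OneMemClass.coe_one, map_one]
      rw [← hl, ← zpow_natCast, ← zpow_mul, mul_comm, zpow_mul, zpow_natCast, hfx, one_zpow]
    simp only [SubmonoidClass.coe_pow, OneMemClass.coe_one, map_pow, map_one]
    rw [hpow, hσ1]
  refine le_trans (Nat.cast_le.2 (smoothClasses_le_quotient hnp φ.ker hker)) ?_
  haveI : Nonempty Ω := (Set.range_nonempty _).to_subtype
  refine (ih (C ⧸ φ.ker) Ω (QuotientGroup.kerLift φ) (QuotientGroup.kerLift_injective φ)).trans ?_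
  rw [show Nat.card Ω = orb S from Nat.card_coe_set_eq _]

theorem smoothClasses_le_rate : ∀ (n : ℕ) (G X : Type) [Group G] [Finite G] [Finite X] [Nonempty X]
    (f : G →* Equiv.Perm X), Function.Injective f →
      (smoothClasses G n : ℝ) ≤ rate n ^ (Nat.card X - 1) := by
  intro n
  induction n with
  | zero =>
    intro G X _ _ _ _ f _
    refine le_trans ?_ (one_le_pow₀ (one_le_rate 0))
    exact_mod_cast smoothClasses_le_one (eq_one_of_smooth_one (by norm_num : 0 < 2))
  | succ n ih =>
    intro G X _ _ _ _ f hf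
    classical
    by_cases hpr : (n + 1).Prime
    swap
    · refine le_trans ?_ ((ih G X f hf).trans
        (pow_le_pow_left₀ (zero_le_one.trans (one_le_rate n)) (rate_succ n) _))
      refine Nat.cast_le.2 (Nat.card_le_card_of_injective
        (fun C => ⟨C.1, ?_⟩) fun a b h => Subtype.ext (congrArg (fun z => z.1) h))
      obtain ⟨g, hg, hsm⟩ := C.2
      refine ⟨g, hg, fun q hq hd => ?_⟩
      have := hsm q hq hd
      rcases Nat.lt_or_ge q (n + 1) with h | h
      · omega
      · exact absurd ((le_antisymm this h) ▸ hq) hpr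
    haveI : Fact (n + 1).Prime := ⟨hpr⟩
    let P : Sylow (n + 1) G := default
    haveI : Fintype (P : Subgroup G) := Fintype.ofFinite _
    have hstep : (smoothClasses G (n + 1) : ℝ) ≤ ∑ x : (P : Subgroup G),
        rate n ^ (orb (zpowers (f x)) - 1) := by
      refine (Nat.cast_le.2 (smoothClasses_le_sum rfl P)).trans ?_
      push_cast
      exact Finset.sum_le_sum fun x _ => centralizer_classes f hf (Nat.lt_succ_self n) (rate n) x
        (P.isPGroup'.to_le (zpowers_le.2 x.2)) ih
    refine hstep.trans ?_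
    set Q := (P : Subgroup G).map f with hQ
    have hQp : IsPGroup (n + 1) Q := P.isPGroup'.map f
    obtain ⟨hcard, hw⟩ := pgroup_bounds (n + 1) (Nat.card X) X rfl Q hQp
    have hexp : Nat.card X - orb Q ≤ Nat.card X - 1 := by
      have := orb_pos Q; omega
    have hcardQ : Nat.card Q = Nat.card (P : Subgroup G) := card_map_of_injective hf
    by_cases hn : n + 1 = 2
    · obtain rfl : n = 1 := by omega
      simp only [show rate 1 = 1 by simp [rate], show rate (1 + 1) = 2 by simp [rate], one_pow,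
        Finset.sum_const, Finset.card_univ, nsmul_eq_mul, mul_one]
      rw [← Nat.card_eq_fintype_card, ← hcardQ]
      have : Nat.card Q ≤ 2 ^ (Nat.card X - 1) := by
        refine le_trans ?_ (Nat.pow_le_pow_right (by norm_num) hexp)
        simpa using hcard
      exact_mod_cast this
    · obtain ⟨β, hβ, hβle, h1, h2⟩ := rate_step hpr hn
      rw [Nat.add_sub_cancel] at hβle h1 h2
      haveI : Fintype Q := Fintype.ofFinite _
      have hsum := hw (rate n) β (one_le_rate n) hβ (by simpa using h1) (by simpa using h2)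
      have hpos : 0 < rate n := lt_of_lt_of_le one_pos (one_le_rate n)
      rw [← mul_le_mul_iff_of_pos_right hpos, Finset.sum_mul]
      calc ∑ x : (P : Subgroup G), rate n ^ (orb (zpowers (f x)) - 1) * rate n
          = ∑ σ : Q, rate n ^ orb (zpowers (σ : Equiv.Perm X)) :=
            Fintype.sum_equiv ((P : Subgroup G).equivMapOfInjective f hf).toEquiv _ _ fun x => by
              rw [← pow_succ, Nat.sub_add_cancel (orb_pos _)]
              rfl
        _ ≤ rate n ^ Nat.card X * β ^ (Nat.card X - orb Q) := hsum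
        _ ≤ rate n ^ Nat.card X * β ^ (Nat.card X - 1) :=
            mul_le_mul_of_nonneg_left (pow_le_pow_right₀ hβ hexp) (by positivity)
        _ = (rate n * β) ^ (Nat.card X - 1) * rate n := by
            rw [mul_pow, mul_right_comm, ← pow_succ, Nat.sub_add_cancel Nat.card_pos]
        _ ≤ _ := mul_le_mul_of_nonneg_right
            (pow_le_pow_left₀ (by positivity) hβle _) hpos.le

theorem card_conjClasses_le {d : ℕ} (hd : 1 ≤ d) (G : Subgroup (Equiv.Perm (Fin d))) :
    Nat.card (ConjClasses G) ≤ 5 ^ (d - 1) := by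
  haveI : Nonempty (Fin d) := ⟨⟨0, hd⟩⟩
  have h := smoothClasses_le_rate d G (Fin d) G.subtype (Subgroup.subtype_injective G)
  rw [Nat.card_fin] at h
  have hall : smoothClasses G d = Nat.card (ConjClasses G) := by
    refine Nat.card_congr (Equiv.subtypeUnivEquiv fun C => ?_)
    obtain ⟨g, rfl⟩ := ConjClasses.exists_rep C
    refine ⟨g, rfl, fun q hq hdv => ?_⟩
    have h1 := hdv.trans ((orderOf_dvd_natCard g).trans (card_subgroup_dvd_card G))
    rw [Nat.card_perm, Nat.card_fin] at h1
    exact (Nat.Prime.dvd_factorial hq).1 h1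
  rw [hall] at h
  have h5 := h.trans (pow_le_pow_left₀ (zero_le_one.trans (one_le_rate d)) (rate_le d) _)
  exact_mod_cast h5

end Cfsg.Agent.PermClasses
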